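import Mathlib

set_option autoImplicit false

namespace Cfsg.Agent.Lib.CompLen

variable {G Q : Type*} [Group G] [Group Q]

/-- A subnormal chain with `l` proper steps from the trivial subgroup up to `X`. -/
inductive ChainTo {G : Type*} [Group G] : ℕ → Subgroup G → Prop
  | zero : ChainTo 0 ⊥
  | step {l : ℕ} {Y X : Subgroup G} : ChainTo l Y → Y < X → (Y.subgroupOf X).Normal → ChainTo (l + 1) X

/-- Three times the composition length is at most `q`. -/
def Bnd (G : Type*) [Group G] (q : ℕ) : Prop := ∀ l, ChainTo l (⊤ : Subgroup G) → 3 * l ≤ q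

theorem Bnd.mono {q q' : ℕ} (h : Bnd G q) (hq : q ≤ q') : Bnd G q' :=
  fun l hl => (h l hl).trans hq

theorem chainTo_of_fin (l : ℕ) (H : Fin (l + 1) → Subgroup G) (h0 : H 0 = ⊥)
    (hchain : ∀ i : Fin l, H i.castSucc < H i.succ ∧ ((H i.castSucc).subgroupOf (H i.succ)).Normal) :
    ∀ i : Fin (l + 1), ChainTo i.1 (H i) := by
  intro i
  induction i using Fin.induction with
  | zero => simpa [h0] using ChainTo.zero (G := G)
  | succ i ih => exact ChainTo.step ih (hchain i).1 (hchain i).2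

theorem step' {l : ℕ} {Y X : Subgroup G} (h : ChainTo l Y) (hle : Y ≤ X)
    (hn : ∀ y ∈ Y, ∀ x ∈ X, x * y * x⁻¹ ∈ Y) :
    (Y = X ∧ ChainTo l X) ∨ (Y < X ∧ ChainTo (l + 1) X) := by
  rcases hle.eq_or_lt with e | hlt
  · exact Or.inl ⟨e, e ▸ h⟩
  · exact Or.inr ⟨hlt, h.step hlt ⟨fun y hy x => hn y hy x x.2⟩⟩

theorem normal_conj {Y X : Subgroup G} (hlt : Y ≤ X) (hn : (Y.subgroupOf X).Normal) :
    ∀ y ∈ Y, ∀ x ∈ X, x * y * x⁻¹ ∈ Y :=
  fun y hy x hx => hn.conj_mem ⟨y, hlt hy⟩ hy ⟨x, hx⟩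

theorem ChainTo.split {l : ℕ} {X : Subgroup G} (h : ChainTo l X) (f : G →* Q) :
    ∃ a b, l ≤ a + b ∧ ChainTo a (X ⊓ f.ker) ∧ ChainTo b (X.map f) := by
  induction h with
  | zero => exact ⟨0, 0, le_rfl, by simpa using ChainTo.zero, by simpa using ChainTo.zero⟩
  | @step l Y X _ hlt hn ih =>
    obtain ⟨a, b, hab, ha, hb⟩ := ih
    have hc := normal_conj hlt.le hn
    have h1 := step' ha (inf_le_inf_right f.ker hlt.le) (fun y hy x hx =>
      ⟨hc y hy.1 x hx.1, f.normal_ker.conj_mem y hy.2 x⟩)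
    have h2 := step' hb (Subgroup.map_mono hlt.le) (by
      rintro _ ⟨y, hy, rfl⟩ _ ⟨x, hx, rfl⟩
      exact ⟨x * y * x⁻¹, hc y hy x hx, by simp⟩)
    rcases h1 with ⟨e1, k1⟩ | ⟨-, k1⟩ <;> rcases h2 with ⟨e2, k2⟩ | ⟨-, k2⟩
    · refine absurd ?_ hlt.ne
      refine le_antisymm hlt.le fun x hx => ?_
      obtain ⟨y, hy, hxy⟩ : f x ∈ Y.map f := e2 ▸ ⟨x, hx, rfl⟩
      have hk : y⁻¹ * x ∈ Y ⊓ f.ker := e1 ▸
        ⟨X.mul_mem (X.inv_mem (hlt.le hy)) hx, by simp [MonoidHom.mem_ker, hxy]⟩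
      simpa using mul_mem hy hk.1
    · exact ⟨a, b + 1, by omega, k1, k2⟩
    · exact ⟨a + 1, b, by omega, k1, k2⟩
    · exact ⟨a + 1, b + 1, by omega, k1, k2⟩

theorem ChainTo.comap {a b : ℕ} {X : Subgroup Q} (f : G →* Q) (ha : ChainTo a f.ker) (h : ChainTo b X) :
    X ≤ f.range → ChainTo (a + b) (X.comap f) := by
  induction h with
  | zero => intro _; rw [MonoidHom.comap_bot]; simpa using ha
  | @step l Y X _ hlt hn ih =>
    intro hX
    refine (ih (hlt.le.trans hX)).step (lt_of_le_of_ne (Subgroup.comap_mono hlt.le) ?_) ?_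
    · intro e
      apply hlt.ne
      rw [← Subgroup.map_comap_eq_self (hlt.le.trans hX), e, Subgroup.map_comap_eq_self hX]
    · exact ⟨fun y hy x => by
        show f _ ∈ Y
        simpa using normal_conj hlt.le hn (f y) hy (f x) x.2⟩

theorem ChainTo.subgroupOf {a : ℕ} {X : Subgroup G} (H : Subgroup G) (h : ChainTo a X) (hX : X ≤ H) :
    ChainTo a (X.subgroupOf H) := by
  have h0 : ChainTo 0 H.subtype.ker := by rw [H.ker_subtype]; exact ChainTo.zero
  have h1 := ChainTo.comap H.subtype h0 h (by rw [Subgroup.range_subtype]; exact hX)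
  rw [Nat.zero_add] at h1
  exact h1

theorem ChainTo.inv {l : ℕ} {X : Subgroup G} (h : ChainTo l X) :
    (l = 0 ∧ X = ⊥) ∨ ∃ k Y, l = k + 1 ∧ ChainTo k Y ∧ Y < X ∧ (Y.subgroupOf X).Normal := by
  induction h with
  | zero => exact Or.inl ⟨rfl, rfl⟩
  | @step l Y X h hlt hn _ => exact Or.inr ⟨l, Y, rfl, h, hlt, hn⟩

theorem bnd_of_hom (f : G →* Q) {a b : ℕ} (hk : Bnd f.ker a) (hr : Bnd f.range b) : Bnd G (a + b) := by
  intro l hl
  obtain ⟨x, y, hxy, hx, hy⟩ := hl.split f
  rw [top_inf_eq] at hx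
  rw [← MonoidHom.range_eq_map] at hy
  have h1 := hk x (Subgroup.subgroupOf_self f.ker ▸ hx.subgroupOf f.ker le_rfl)
  have h2 := hr y (Subgroup.subgroupOf_self f.range ▸ hy.subgroupOf f.range le_rfl)
  omega

theorem bnd_subsingleton [Subsingleton G] (q : ℕ) : Bnd G q := by
  intro l hl
  rcases hl.inv with ⟨rfl, -⟩ | ⟨k, Y, -, -, hlt, -⟩
  · omega
  · exact absurd (Subsingleton.elim _ _) hlt.ne

theorem bnd_of_injective (f : G →* Q) (hf : Function.Injective f) {q : ℕ} (h : Bnd f.range q) : Bnd G q := by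
  have : Subsingleton f.ker := by rw [(MonoidHom.ker_eq_bot_iff f).2 hf]; infer_instance
  simpa using bnd_of_hom f (bnd_subsingleton 0) h

theorem bnd_of_surjective (f : G →* Q) (hf : Function.Surjective f) {q : ℕ} (h : Bnd G q) : Bnd Q q := by
  intro l hl
  have hX : (⊤ : Subgroup Q) ≤ f.range := by rw [MonoidHom.range_eq_top.2 hf]
  by_cases hk : f.ker = ⊥
  · have := ChainTo.comap f (a := 0) (hk ▸ ChainTo.zero) hl hX
    simpa using h _ this
  · have h1 : ChainTo 1 f.ker := ChainTo.zero.step (bot_lt_iff_ne_bot.2 hk) inferInstance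
    have h2 := ChainTo.comap f h1 hl hX
    rw [Subgroup.comap_top] at h2
    have := h _ h2
    omega

theorem bnd_of_surjective_ker (f : G →* Q) (hf : Function.Surjective f) (hk : f.ker ≠ ⊥) {q : ℕ}
    (h : Bnd G q) : Bnd Q (q - 3) := by
  intro l hl
  have hX : (⊤ : Subgroup Q) ≤ f.range := by rw [MonoidHom.range_eq_top.2 hf]
  have h1 : ChainTo 1 f.ker := ChainTo.zero.step (bot_lt_iff_ne_bot.2 hk) inferInstance
  have h2 := ChainTo.comap f h1 hl hX
  rw [Subgroup.comap_top] at h2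
  have := h _ h2
  omega

theorem ChainTo.index_bound [Finite G] (H : Subgroup G) {l : ℕ} {X : Subgroup G} (h : ChainTo l X) :
    ∃ a, ChainTo a (X ⊓ H) ∧ 2 ^ l ≤ 2 ^ a * H.relIndex X := by
  induction h with
  | zero => exact ⟨0, by simpa using ChainTo.zero, by simp⟩
  | @step l Y X _ hlt hn ih =>
    obtain ⟨a, ha, hl⟩ := ih
    have hc := normal_conj hlt.le hn
    have hmono : H.relIndex Y ≤ H.relIndex X := Subgroup.relIndex_le_of_le_right hlt.le (Subgroup.index_ne_zero_of_finite (H := H.subgroupOf X))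
    rcases step' ha (inf_le_inf_right H hlt.le)
      (fun y hy x hx => ⟨hc y hy.1 x hx.1, H.mul_mem (H.mul_mem hx.2 hy.2) (H.inv_mem hx.2)⟩) with ⟨e, k⟩ | ⟨-, k⟩
    · refine ⟨a, k, ?_⟩
      have key : ∀ Z : Subgroup G, H.relIndex Z * Nat.card ↥(Z ⊓ H) = Nat.card Z := by
        intro Z
        rw [← Subgroup.inf_relIndex_right H Z, inf_comm H Z, Subgroup.relIndex, mul_comm,
          ← Nat.card_congr (Subgroup.subgroupOfEquivOfLe (inf_le_left : Z ⊓ H ≤ Z)).toEquiv,
          Subgroup.card_mul_index]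
      have h1 := key Y
      have h2 := key X
      rw [e] at h1
      have hlt2 : 2 * Nat.card Y ≤ Nat.card X := by
        obtain ⟨c, hc'⟩ := Subgroup.card_dvd_of_le hlt.le
        rcases c with _ | _ | c
        · have := Nat.card_pos (α := X); omega
        · exact absurd (Subgroup.eq_of_le_of_card_ge hlt.le (by omega)) hlt.ne
        · rw [hc']; nlinarith
      have hpos : 0 < Nat.card ↥(X ⊓ H) := Nat.card_pos
      have : 2 * H.relIndex Y ≤ H.relIndex X := by nlinarith
      calc 2 ^ (l + 1) = 2 * 2 ^ l := by rw [pow_succ]; ring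
        _ ≤ 2 * (2 ^ a * H.relIndex Y) := Nat.mul_le_mul_left _ hl
        _ = 2 ^ a * (2 * H.relIndex Y) := by ring
        _ ≤ 2 ^ a * H.relIndex X := Nat.mul_le_mul_left _ this
    · refine ⟨a + 1, k, ?_⟩
      calc 2 ^ (l + 1) = 2 * 2 ^ l := by rw [pow_succ]; ring
        _ ≤ 2 * (2 ^ a * H.relIndex X) := Nat.mul_le_mul_left _ (hl.trans (Nat.mul_le_mul_left _ hmono))
        _ = 2 ^ (a + 1) * H.relIndex X := by ring

theorem bnd_of_index [Finite G] (H : Subgroup G) {q L : ℕ} (hH : Bnd H q) (hi : H.index ≤ 2 ^ L ∨ Nat.log 2 H.index ≤ L) :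
    Bnd G (q + 3 * L) := by
  intro l hl
  obtain ⟨a, ha, hle⟩ := hl.index_bound H
  rw [top_inf_eq] at ha
  rw [Subgroup.relIndex_top_right] at hle
  have h1 := hH a (Subgroup.subgroupOf_self H ▸ ha.subgroupOf H le_rfl)
  rcases le_or_gt l a with h | h
  · omega
  · have h2 : 2 ^ (l - a) ≤ H.index := by
      have : 2 ^ l = 2 ^ a * 2 ^ (l - a) := by rw [← pow_add]; congr 1; omega
      rw [this] at hle
      exact Nat.le_of_mul_le_mul_left hle (by positivity)
    have h3 : l - a ≤ L := by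
      rcases hi with hi | hi
      · exact (Nat.pow_le_pow_iff_right (by norm_num)).1 (h2.trans hi)
      · exact (Nat.le_log_of_pow_le (by norm_num) h2).trans hi
    omega

theorem bnd_simple [IsSimpleGroup G] : Bnd G 3 := by
  intro l hl
  rcases hl.inv with ⟨rfl, -⟩ | ⟨k, Y, rfl, h, hlt, hn⟩
  · omega
  · have hY : Y.Normal := ⟨fun y hy x => normal_conj le_top hn y hy x trivial⟩
    rcases hY.eq_bot_or_eq_top with e | e
    · rcases h.inv with ⟨rfl, -⟩ | ⟨k', Z, -, -, hlt', -⟩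
      · omega
      · exact absurd (e ▸ hlt') not_lt_bot
    · exact absurd e hlt.ne

theorem bnd_pi {T : Type*} [Group T] [IsSimpleGroup T] (m : ℕ) : Bnd (Fin m → T) (3 * m) := by
  induction m with
  | zero => exact bnd_subsingleton 0
  | succ m ih =>
    let f : (Fin (m + 1) → T) →* T := Pi.evalMonoidHom (fun _ : Fin (m + 1) => T) 0
    have hf : Function.Surjective f := fun t => ⟨fun _ => t, rfl⟩
    let g : f.ker →* (Fin m → T) :=
      { toFun := fun x i => x.1 i.succ
        map_one' := rfl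
        map_mul' := fun _ _ => rfl }
    have hgs : Function.Surjective g := fun v => ⟨⟨Fin.cons 1 v, by simp [f, MonoidHom.mem_ker]⟩, by funext i; simp [g]⟩
    have hgi : Function.Injective g := by
      intro x y h
      ext i
      induction i using Fin.cases with
      | zero => exact (x.2 : x.1 0 = 1).trans (y.2 : y.1 0 = 1).symm
      | succ i => exact congrFun h i
    have hk : Bnd f.ker (3 * m) := bnd_of_injective g hgi
      (bnd_of_surjective (MulEquiv.symm ((MulEquiv.subgroupCongr (MonoidHom.range_eq_top.2 hgs)).trans Subgroup.topEquiv)).toMonoidHom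
        (MulEquiv.surjective _) ih)
    have hr : Bnd f.range 3 := bnd_of_surjective (MulEquiv.symm ((MulEquiv.subgroupCongr (MonoidHom.range_eq_top.2 hf)).trans Subgroup.topEquiv)).toMonoidHom
      (MulEquiv.surjective _) bnd_simple
    exact (bnd_of_hom f hk hr).mono (by omega)

end Cfsg.Agent.Lib.CompLen
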