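import Cfsg.Agent.Lib.CompLen.Power

set_option autoImplicit false
open scoped Pointwise

namespace Cfsg.Agent.Lib.CompLen

variable {T : Type*} [Group T] [IsSimpleGroup T] [Finite T] {m : ℕ} {G : Type*} [Group G]

omit [IsSimpleGroup T] in
theorem five_le_card (hT : ¬ IsMulCommutative T) : 5 ≤ Nat.card T := by
  by_contra h
  push Not at h
  apply hT
  have := Nat.card_pos (α := T)
  interval_cases hc : Nat.card T
  · have := (Nat.card_eq_one_iff_unique.1 hc).1
    exact ⟨⟨fun a b => Subsingleton.elim _ _⟩⟩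
  · have : Fact (Nat.Prime 2) := ⟨Nat.prime_two⟩
    have := isCyclic_of_prime_card hc
    infer_instance
  · have : Fact (Nat.Prime 3) := ⟨Nat.prime_three⟩
    have := isCyclic_of_prime_card hc
    infer_instance
  · have : Fact (Nat.Prime 2) := ⟨Nat.prime_two⟩
    exact IsPGroup.isMulCommutative_of_card_eq_prime_sq (p := 2) (by simpa using hc)

theorem arith_pow {m k q : ℕ} (hk : 2 ≤ k) (hm : m ≤ 2 * k) (hq : 5 ≤ q) : m * q < q ^ k := by
  have key : ∀ k, 2 ≤ k → 2 * k < q ^ (k - 1) := by
    intro k hk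
    induction k, hk using Nat.le_induction with
    | base => simp; omega
    | succ k hk ih =>
      rw [show k + 1 - 1 = (k - 1) + 1 by omega, pow_succ]
      nlinarith [Nat.one_le_pow (k - 1) q (by omega)]
  calc m * q ≤ (2 * k) * q := Nat.mul_le_mul_right _ hm
    _ < q ^ (k - 1) * q := Nat.mul_lt_mul_of_pos_right (key k hk) (by omega)
    _ = q ^ k := by rw [← pow_succ]; congr 1; omega

/-- A power of a simple group normalised by a transitive group: a small faithful set. -/
theorem small_set (hT : ¬ IsMulCommutative T) (φ : G →* MulAut (Fin m → T)) (K : Subgroup (Fin m → T))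
    (hdec : ∀ g, ∃ (v : Fin m → T) (h : G), φ g = MulAut.conj v * φ h ∧ ∀ x, x ∈ K ↔ φ h x ∈ K)
    (hmin : ∀ X : Subgroup (Fin m → T), (∀ g, ∀ x ∈ X, φ g x ∈ X) → X = ⊥ ∨ X = ⊤)
    (hKb : K ≠ ⊥) (hKt : K ≠ ⊤) (hm : 3 ≤ m) :
    (∃ X : Set (Subgroup (Fin m → T)), Nat.card X < K.index ∧
      (∀ g, ∀ S ∈ X, S.map (φ g).toMonoidHom ∈ X) ∧ ∃ S ∈ X, ∃ v, S.map (MulAut.conj v).toMonoidHom ≠ S) ∨
    (∃ X : Set (Fin m → T), Nat.card X < K.index ∧ (∀ g, ∀ x ∈ X, φ g x ∈ X) ∧
      ∀ i t, Pi.mulSingle i t ∈ X) := by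
  classical
  obtain ⟨a0, ha0⟩ := exists_ne (1 : T)
  choose σ f hf hf' using fun g => exists_perm hT (φ g)
  have inner : ∀ (v : Fin m → T) (x : Fin m → T), MulAut.conj v x = v * x * v⁻¹ := fun v x => rfl
  -- the coordinate permutation ignores inner automorphisms
  have hσ : ∀ g v h, φ g = MulAut.conj v * φ h → σ g = σ h ∧ ∀ i t, f g i t = v (σ h i) * f h i t * (v (σ h i))⁻¹ := by
    intro g v h e
    have h1 : ∀ i t, Pi.mulSingle (σ g i) (f g i t) = (Pi.mulSingle (σ h i) (v (σ h i) * f h i t * (v (σ h i))⁻¹) : Fin m → T) := by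
      intro i t
      rw [← hf, e, MulAut.mul_apply, hf, inner, conj_single]
    have h2 : σ g = σ h := by
      refine Equiv.ext fun i => ?_
      by_contra hne
      have := congrFun (h1 i a0) (σ g i)
      rw [Pi.mulSingle_eq_same, Pi.mulSingle_eq_of_ne hne] at this
      simp [ha0] at this
    refine ⟨h2, fun i t => ?_⟩
    have := congrFun (h1 i t) (σ h i)
    rwa [h2, Pi.mulSingle_eq_same, Pi.mulSingle_eq_same] at this
  -- invariant families of coordinates are everything
  have htrans : ∀ J : Set (Fin m), J.Nonempty →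
      (∀ h, (∀ x, x ∈ K ↔ φ h x ∈ K) → ∀ i, i ∈ J → σ h i ∈ J) → J = Set.univ := by
    intro J ⟨i0, hi0⟩ hJ
    have hJg : ∀ g i, i ∈ J ↔ σ g i ∈ J := by
      have one : ∀ g i, i ∈ J → σ g i ∈ J := by
        intro g i hi
        obtain ⟨v, h, e, hh⟩ := hdec g
        rw [(hσ g v h e).1]
        exact hJ h hh i hi
      intro g i
      refine ⟨one g i, fun hi => ?_⟩
      have h1 : σ g⁻¹ (σ g i) = i := by
        have h2 : φ g⁻¹ (φ g (Pi.mulSingle i a0)) = Pi.mulSingle i a0 := by simp
        rw [hf, hf] at h2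
        by_contra hne
        have := congrFun h2 i
        rw [Pi.mulSingle_eq_same, Pi.mulSingle_eq_of_ne (Ne.symm hne)] at this
        exact ha0 this.symm
      exact h1 ▸ one g⁻¹ _ hi
    let X : Subgroup (Fin m → T) :=
      { carrier := {x | ∀ i, i ∉ J → x i = 1}
        one_mem' := fun _ _ => rfl
        mul_mem' := fun hx hy i hi => by simp [hx i hi, hy i hi]
        inv_mem' := fun hx i hi => by simp [hx i hi] }
    rcases hmin X (fun g x hx => fun k hk => by
      obtain ⟨i, rfl⟩ := (σ g).surjective k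
      rw [hf', hx i (fun hi => hk ((hJg g i).1 hi)), map_one]) with e | e
    · have : Pi.mulSingle i0 a0 ∈ X := fun i hi => Pi.mulSingle_eq_of_ne (fun h : i = i0 => hi (h ▸ hi0)) _
      simp [e, ha0] at this
    · refine Set.eq_univ_of_forall fun i => by_contra fun hi => ?_
      have : Pi.mulSingle i a0 ∈ X := e ▸ Subgroup.mem_top _
      exact ha0 (by simpa using this i hi)
  let P : Fin m → Subgroup T := fun i => K.map (Pi.evalMonoidHom (fun _ : Fin m => T) i)
  have hP : ∀ h, (∀ x, x ∈ K ↔ φ h x ∈ K) → ∀ i t, t ∈ P i ↔ f h i t ∈ P (σ h i) := by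
    intro h hh i t
    constructor
    · rintro ⟨x, hx, rfl⟩
      exact ⟨φ h x, (hh x).1 hx, hf' h x i⟩
    · rintro ⟨y, hy, e⟩
      refine ⟨(φ h).symm y, (hh _).2 (by simpa using hy), (f h i).injective ?_⟩
      rw [← e]
      show f h i ((φ h).symm y i) = y (σ h i)
      rw [← hf', MulEquiv.apply_symm_apply]
  by_cases hall : ∀ i, P i = ⊤
  · -- all projections are onto
    right
    let Free : Finset (Fin m) → Prop := fun I => ∀ x ∈ K, (∀ i, i ∉ I → x i = 1) → x = 1
    have hF0 : Free ∅ := fun x _ hx => funext fun i => hx i (by simp)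
    obtain ⟨I, hI, hImax⟩ := (Set.toFinite {I | Free I}).exists_maximal ⟨∅, hF0⟩
    have hsingle : ∀ i t, Pi.mulSingle i t ∈ K → t = 1 := by
      intro i t hit
      by_contra ht
      let J : Set (Fin m) := {i | ∀ t, Pi.mulSingle i t ∈ K}
      have hiJ : i ∈ J := by
        let L : Subgroup T := K.comap (MonoidHom.mulSingle (fun _ : Fin m => T) i)
        have hL : L.Normal := ⟨fun u hu y => by
          obtain ⟨x, hx, rfl⟩ : y ∈ P i := hall i ▸ Subgroup.mem_top y
          show Pi.mulSingle i (x i * u * (x i)⁻¹) ∈ K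
          rw [← conj_single]
          exact K.mul_mem (K.mul_mem hx hu) (K.inv_mem hx)⟩
        rcases hL.eq_bot_or_eq_top with e | e
        · exact absurd (show t ∈ L from hit) (by simp [e, ht])
        · exact fun u => (e ▸ Subgroup.mem_top u : u ∈ L)
      have hJu := htrans J ⟨i, hiJ⟩ (fun h hh i hi u => by
        obtain ⟨w, rfl⟩ := (f h i).surjective u
        rw [← hf]
        exact (hh _).1 (hi w))
      refine hKt (eq_top_iff.2 fun x _ => ?_)
      exact Subgroup.pi_mem_of_mulSingle_mem x (fun j => (hJu ▸ Set.mem_univ j : j ∈ J) (x j))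
    have hex : ∀ j, j ∉ I → ∃ i ∈ I, ∃ x ∈ K, x i ≠ 1 ∧ x j ≠ 1 ∧ ∀ l, l ∉ I → l ≠ j → x l = 1 := by
      intro j hj
      have hnot : ¬ Free (insert j I) := fun h => hj (hImax h (Finset.subset_insert _ _) (Finset.mem_insert_self _ _))
      simp only [Free, not_forall] at hnot
      obtain ⟨x, hx, hs, hne⟩ := hnot
      have hxj : x j ≠ 1 := fun e => hne (hI x hx fun i hi => by
        rcases eq_or_ne i j with rfl | h
        · exact e
        · exact hs i (by simp [hi, h]))
      obtain ⟨i, hi, hxi⟩ : ∃ i ∈ I, x i ≠ 1 := by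
        by_contra hc
        push Not at hc
        apply hxj
        have : x = Pi.mulSingle j (x j) := by
          funext l
          rcases eq_or_ne l j with rfl | h
          · simp
          · rw [Pi.mulSingle_eq_of_ne h]
            by_cases hl : l ∈ I
            · exact hc l hl
            · exact hs l (by simp [hl, h])
        exact hsingle j (x j) (this ▸ hx)
      exact ⟨i, hi, x, hx, hxi, hxj, fun l hl hlj => hs l (by simp [hl, hlj])⟩
    choose c hcI w hwK hwi hwj hwl using hex
    have hinj : ∀ j j' hj hj', c j hj = c j' hj' → j = j' := by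
      intro j j' hj hj' e
      by_contra hne
      -- the elements of `K` supported on `I ∪ {j'}` project onto a normal subgroup at `c j`
      let B : Subgroup (Fin m → T) :=
        { carrier := {x | x ∈ K ∧ ∀ l, l ∉ I → l ≠ j' → x l = 1}
          one_mem' := ⟨K.one_mem, fun _ _ _ => rfl⟩
          mul_mem' := fun ha hb => ⟨K.mul_mem ha.1 hb.1, fun l h1 h2 => by simp [ha.2 l h1 h2, hb.2 l h1 h2]⟩
          inv_mem' := fun ha => ⟨K.inv_mem ha.1, fun l h1 h2 => by simp [ha.2 l h1 h2]⟩ }
      let R : Subgroup T := B.map (Pi.evalMonoidHom (fun _ : Fin m => T) (c j hj))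
      have hRn : R.Normal := ⟨fun u hu y => by
        obtain ⟨x, ⟨hx, hx'⟩, rfl⟩ := hu
        obtain ⟨z, hz, rfl⟩ : y ∈ P (c j hj) := hall _ ▸ Subgroup.mem_top y
        exact ⟨z * x * z⁻¹, ⟨K.mul_mem (K.mul_mem hz hx) (K.inv_mem hz), fun l h1 h2 => by simp [hx' l h1 h2]⟩, by simp⟩⟩
      have hRt : R = ⊤ := hRn.eq_bot_or_eq_top.resolve_left fun hb => hwi j' hj' (by
        have : w j' hj' (c j hj) ∈ R := ⟨w j' hj', ⟨hwK j' hj', hwl j' hj'⟩, rfl⟩
        rw [hb, Subgroup.mem_bot] at this
        rwa [← e])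
      obtain ⟨t, ht⟩ := exists_comm_ne hT (hwi j hj)
      obtain ⟨z, ⟨hz, hz'⟩, hzt⟩ : t ∈ R := hRt ▸ Subgroup.mem_top t
      have h1 := hI (w j hj * z * (w j hj)⁻¹ * z⁻¹)
        (K.mul_mem (K.mul_mem (K.mul_mem (hwK j hj) hz) (K.inv_mem (hwK j hj))) (K.inv_mem hz)) (fun l hl => by
          by_cases hlj : l = j
          · subst hlj; simp [hz' l hl hne]
          · simp [hwl j hj l hl hlj])
      apply ht
      have h2 := congrFun h1 (c j hj)
      simp only [Pi.mul_apply, Pi.inv_apply, Pi.one_apply] at h2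
      rw [show z (c j hj) = t from hzt] at h2
      have h3 := congrArg (fun y => y * (t * w j hj (c j hj))) h2
      simpa [mul_assoc] using h3
    have hcard : m ≤ 2 * I.card := by
      have h1 : Iᶜ.card ≤ I.card := Finset.card_le_card_of_injOn
        (fun j => if hj : j ∈ I then j else c j hj)
        (fun j hj => by
          have : j ∉ I := Finset.mem_compl.1 hj
          simp [this, hcI])
        (fun j hj j' hj' e => by
          have h1 : j ∉ I := Finset.mem_compl.1 hj
          have h2 : j' ∉ I := Finset.mem_compl.1 hj'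
          simp only [dif_neg h1, dif_neg h2] at e
          exact hinj j j' h1 h2 e)
      rw [Finset.card_compl, Fintype.card_fin] at h1
      omega
    have hidx : Nat.card T ^ I.card ≤ K.index := by
      let F : (I → T) → (Fin m → T) ⧸ K := fun s => QuotientGroup.mk fun i => if hi : i ∈ I then s ⟨i, hi⟩ else 1
      have hF : Function.Injective F := by
        intro s s' e
        have h1 := hI _ (QuotientGroup.eq.1 e) (fun i hi => by simp [hi])
        funext i
        have h2 := congrFun h1 i.1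
        simpa [i.2, inv_mul_eq_one] using h2
      have := Nat.card_le_card_of_injective F hF
      simpa [Subgroup.index, Nat.card_fun] using this
    refine ⟨Set.range fun p : Fin m × T => Pi.mulSingle p.1 p.2, ?_, ?_, fun i t => ⟨(i, t), rfl⟩⟩
    · refine lt_of_le_of_lt ?_ (lt_of_lt_of_le (arith_pow (m := m) (k := I.card) (by omega) hcard (five_le_card hT)) hidx)
      refine (Finite.card_range_le _).trans_eq ?_
      simp
    · rintro g _ ⟨⟨i, t⟩, rfl⟩
      exact ⟨(σ g i, f g i t), (hf g i t).symm⟩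
  · -- some, hence every, projection is proper
    left
    have hPne : ∀ i, P i ≠ ⊤ := by
      have := htrans {i | P i ≠ ⊤} (by push Not at hall; exact hall) (fun h hh i hi e => hi (eq_top_iff.2 fun t _ => (hP h hh i t).2 (e ▸ Subgroup.mem_top _)))
      exact fun i => (this ▸ Set.mem_univ i : i ∈ {i | P i ≠ ⊤})
    let S : Fin m → T → Subgroup (Fin m → T) := fun i t =>
      (P i).map ((MonoidHom.mulSingle (fun _ : Fin m => T) i).comp (MulAut.conj t).toMonoidHom)
    have hS : ∀ i (q : T ⧸ P i) (t : T), (QuotientGroup.mk t : T ⧸ P i) = q → S i t = S i q.out := by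
      intro i q t ht
      have hq : q.out⁻¹ * t ∈ P i := QuotientGroup.eq.1 (by rw [QuotientGroup.out_eq', ht])
      obtain ⟨p, hp, rfl⟩ : ∃ p ∈ P i, t = q.out * p := ⟨_, hq, by simp⟩
      ext x
      constructor
      · rintro ⟨y, hy, rfl⟩
        exact ⟨p * y * p⁻¹, (P i).mul_mem ((P i).mul_mem hp hy) ((P i).inv_mem hp), by simp [mul_assoc]⟩
      · rintro ⟨y, hy, rfl⟩
        exact ⟨p⁻¹ * y * p, (P i).mul_mem ((P i).mul_mem ((P i).inv_mem hp) hy) hp, by simp [mul_assoc]⟩
    have hidx : ∏ i, (P i).index ≤ K.index := by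
      have hle : K ≤ Subgroup.pi Set.univ P := fun x hx i _ => ⟨x, hx, rfl⟩
      have h1 : (Subgroup.pi Set.univ P).index ≤ K.index :=
        Nat.le_of_dvd (Nat.pos_of_ne_zero Subgroup.index_ne_zero_of_finite) (Subgroup.index_dvd_of_le hle)
      refine le_trans (le_of_eq ?_) h1
      have e : ↥(Subgroup.pi Set.univ P) ≃ ((i : Fin m) → P i) :=
        { toFun := fun x i => ⟨x.1 i, x.2 i trivial⟩
          invFun := fun x => ⟨fun i => (x i).1, fun i _ => (x i).2⟩
          left_inv := fun x => rfl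
          right_inv := fun x => rfl }
      have h2 := (Subgroup.pi Set.univ P).card_mul_index
      rw [Nat.card_congr e, Nat.card_pi, Nat.card_pi] at h2
      have h3 : (∏ i, Nat.card (P i)) * ∏ i, (P i).index = ∏ _i : Fin m, Nat.card T := by
        rw [← Finset.prod_mul_distrib]
        exact Finset.prod_congr rfl fun i _ => (P i).card_mul_index
      exact Nat.eq_of_mul_eq_mul_left (Finset.prod_pos fun i _ => Nat.card_pos) (h3.trans h2.symm)
    have hPb : ∀ i, P i ≠ ⊥ := by
      intro i hi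
      have := htrans {i | P i = ⊥} ⟨i, hi⟩ (fun h hh i hi => eq_bot_iff.2 fun t ht => by
        obtain ⟨u, rfl⟩ := (f h i).surjective t
        have h1 := (hP h hh i u).2 ht
        rw [show P i = ⊥ from hi, Subgroup.mem_bot] at h1
        simp [h1])
      refine hKb (eq_bot_iff.2 fun x hx => funext fun j => ?_)
      have h1 : x j ∈ P j := ⟨x, hx, rfl⟩
      rwa [show P j = ⊥ from (this ▸ Set.mem_univ j : j ∈ {i | P i = ⊥}), Subgroup.mem_bot] at h1
    have h3 : ∀ i ∈ Finset.univ, 3 ≤ (P i).index := by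
      intro i _
      by_contra h
      have h0 : (P i).index ≠ 0 := Subgroup.index_ne_zero_of_finite
      rcases Nat.lt_or_ge (P i).index 2 with h' | h'
      · exact hPne i (Subgroup.index_eq_one.1 (by omega))
      · rcases (Subgroup.normal_of_index_eq_two (show (P i).index = 2 by omega)).eq_bot_or_eq_top with e | e
        · exact hPb i e
        · exact hPne i e
    refine ⟨Set.range fun p : (i : Fin m) × (T ⧸ P i) => S p.1 p.2.out, ?_, ?_, ?_⟩
    · refine lt_of_le_of_lt ((Finite.card_range_le _).trans_eq ?_)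
        (lt_of_lt_of_le (sum_lt_prod Finset.univ _ h3 (by simp; omega)) hidx)
      rw [Nat.card_sigma]
      rfl
    · rintro g _ ⟨⟨i, q⟩, rfl⟩
      obtain ⟨v, h, e, hh⟩ := hdec g
      refine ⟨⟨σ h i, ((v (σ h i) * f h i q.out : T) : T ⧸ P (σ h i))⟩, ?_⟩
      dsimp only
      rw [← hS _ _ _ rfl]
      ext x
      constructor
      · rintro ⟨u, hu, rfl⟩
        obtain ⟨w, rfl⟩ := (f h i).surjective u
        refine ⟨_, ⟨w, (hP h hh i w).2 hu, rfl⟩, ?_⟩
        simp only [MonoidHom.coe_comp, MulEquiv.coe_toMonoidHom, Function.comp_apply, MulAut.conj_apply, MonoidHom.mulSingle_apply, e, MulAut.mul_apply, hf, conj_single, map_mul, map_inv]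
        simp [mul_assoc]
      · rintro ⟨_, ⟨w, hw, rfl⟩, rfl⟩
        refine ⟨f h i w, (hP h hh i w).1 hw, ?_⟩
        simp only [MonoidHom.coe_comp, MulEquiv.coe_toMonoidHom, Function.comp_apply, MulAut.conj_apply, MonoidHom.mulSingle_apply, e, MulAut.mul_apply, hf, conj_single, map_mul, map_inv]
        simp [mul_assoc]
    · have i0 : Fin m := ⟨0, by omega⟩
      refine ⟨_, ⟨⟨i0, ((1 : T) : T ⧸ P i0)⟩, rfl⟩, ?_⟩
      dsimp only
      rw [← hS _ _ _ rfl]
      by_contra hc
      push Not at hc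
      have hn : (P i0).Normal := ⟨fun u hu y => by
        have h1 : Pi.mulSingle i0 (y * u * y⁻¹) ∈ (S i0 1).map (MulAut.conj (Pi.mulSingle i0 y : Fin m → T)).toMonoidHom :=
          ⟨Pi.mulSingle i0 u, ⟨u, hu, by simp⟩, by simp [conj_single]⟩
        rw [hc] at h1
        obtain ⟨z, hz, hze⟩ := h1
        have h2 : z = y * u * y⁻¹ := by simpa using hze
        exact h2 ▸ hz⟩
      exact hn.eq_bot_or_eq_top.elim (hPb i0) (hPne i0)

end Cfsg.Agent.Lib.CompLen
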