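import Cfsg.Agent.S0721
import Cfsg.Agent.Lib.CompLen.Basic
import Cfsg.Agent.Lib.CompLen.Wreath

set_option autoImplicit false
open scoped Pointwise

namespace Cfsg.Agent.Lib.CompLen

universe v

theorem Bnd.congr {G H : Type*} [Group G] [Group H] (e : G ≃* H) {q : ℕ} (h : Bnd G q) : Bnd H q :=
  bnd_of_surjective e.toMonoidHom e.surjective h

theorem bnd_range_of_surjective {G H : Type*} [Group G] [Group H] (f : G →* H) (hf : Function.Surjective f)
    {q : ℕ} (h : Bnd H q) : Bnd f.range q :=
  h.congr ((MulEquiv.subgroupCongr (MonoidHom.range_eq_top.2 hf)).trans Subgroup.topEquiv).symm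

/-- The bound `4 (n - r) / 3` for all permutation groups of degree `n`. -/
def P (n : ℕ) : Prop := ∀ (Ω : Type v) [Finite Ω] (G : Subgroup (Equiv.Perm Ω)), Nat.card Ω = n →
  Bnd G (4 * (n - Nat.card (Quotient (MulAction.orbitRel G Ω))))

/-- Restriction of an action to an invariant set. -/
def restrictHom {A Y : Type*} [Group A] (ψ : A →* Equiv.Perm Y) (p : Y → Prop)
    (h : ∀ a y, p y → p (ψ a y)) : A →* Equiv.Perm {y // p y} where
  toFun a := (ψ a).subtypePerm (p := p) (fun y => ⟨fun hy => by
    have := h a⁻¹ _ hy; simpa using this, h a y⟩)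
  map_one' := by ext y; simp
  map_mul' a b := by ext y; simp only [map_mul]; rfl

@[simp] theorem restrictHom_apply {A Y : Type*} [Group A] (ψ : A →* Equiv.Perm Y) (p : Y → Prop)
    (h : ∀ a y, p y → p (ψ a y)) (a : A) (y : {y // p y}) :
    ((restrictHom ψ p h a y : {y // p y}) : Y) = ψ a y.1 := rfl

/-- Using the bound in smaller degree, with a lower bound on the number of orbits. -/
theorem bnd_range {n : ℕ} (ih : ∀ m < n, P.{v} m) {A : Type*} [Group A] {Y : Type v} [Finite Y]
    (f : A →* Equiv.Perm Y) (hlt : Nat.card Y < n) {S : Type*} (inv : Y → S)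
    (hinv : ∀ a x, inv (f a x) = inv x) (hsurj : Function.Surjective inv) :
    Bnd f.range (4 * (Nat.card Y - Nat.card S)) := by
  refine (ih _ hlt Y f.range rfl).mono (Nat.mul_le_mul_left _ (Nat.sub_le_sub_left ?_ _))
  let F : Quotient (MulAction.orbitRel f.range Y) → S := Quotient.lift inv (by
    intro a b hab
    obtain ⟨⟨_, c, rfl⟩, rfl⟩ := MulAction.orbitRel_apply.1 hab
    exact hinv c b)
  exact Nat.card_le_card_of_surjective F fun s => by
    obtain ⟨x, rfl⟩ := hsurj s
    exact ⟨Quotient.mk'' x, rfl⟩

/-- A faithful action on a smaller type in any universe `Type`. -/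
theorem bnd_small {n : ℕ} (ih : ∀ m < n, P.{v} m) {A : Type*} [Group A] {Y : Type} [Finite Y] [Nonempty Y]
    (f : A →* Equiv.Perm Y) (hf : Function.Injective f) (hlt : Nat.card Y < n) :
    Bnd A (4 * (n - 2)) := by
  let g : A →* Equiv.Perm (ULift.{v} Y) := (Equiv.permCongrHom Equiv.ulift.symm).toMonoidHom.comp f
  have hg : Function.Injective g := (Equiv.permCongrHom _).injective.comp hf
  have h := bnd_range ih g (by simpa using hlt) (fun _ => ()) (fun _ _ => rfl) (fun _ => ⟨⟨Classical.arbitrary Y⟩, rfl⟩)
  exact (bnd_of_injective g hg h).mono (by simp; omega)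

variable {Ω : Type v} [Finite Ω]

theorem intrans {n : ℕ} (ih : ∀ m < n, P.{v} m) (G : Subgroup (Equiv.Perm Ω)) (hn : Nat.card Ω = n)
    (hr : 2 ≤ Nat.card (Quotient (MulAction.orbitRel G Ω))) :
    Bnd G (4 * (n - Nat.card (Quotient (MulAction.orbitRel G Ω)))) := by
  classical
  have := Fintype.ofFinite Ω
  have : Nontrivial (Quotient (MulAction.orbitRel G Ω)) := Finite.one_lt_card_iff_nontrivial.1 hr
  obtain ⟨q, q', hqq⟩ := exists_pair_ne (Quotient (MulAction.orbitRel G Ω))
  obtain ⟨α, rfl⟩ := Quotient.exists_rep q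
  let cl : Ω → Quotient (MulAction.orbitRel G Ω) := fun x => Quotient.mk _ x
  have hcl : ∀ (a : G) x, cl ((a : Equiv.Perm Ω) x) = cl x := fun a x => Quotient.sound ⟨a, rfl⟩
  let f1 := restrictHom G.subtype (fun x => cl x = cl α) (fun a x hx => (hcl a x).trans hx)
  let f2 := restrictHom G.subtype (fun x => cl x ≠ cl α) (fun a x hx e => hx ((hcl a x).symm.trans e))
  have hsum : Nat.card {x // cl x = cl α} + Nat.card {x // cl x ≠ cl α} = n := by
    rw [← hn, ← Nat.card_sum, Nat.card_congr (Equiv.sumCompl _)]
  have hpos : 0 < Nat.card {x // cl x = cl α} := by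
    have : Nonempty {x // cl x = cl α} := ⟨⟨α, rfl⟩⟩
    exact Nat.card_pos
  have hpos' : 0 < Nat.card {x // cl x ≠ cl α} := by
    obtain ⟨y, rfl⟩ := Quotient.exists_rep q'
    have : Nonempty {x // cl x ≠ cl α} := ⟨⟨y, fun e => hqq e.symm⟩⟩
    exact Nat.card_pos
  have h1 := bnd_range ih f1 (by omega) (fun _ => ()) (fun _ _ => rfl) (fun _ => ⟨⟨α, rfl⟩, rfl⟩)
  let inv : {x // cl x ≠ cl α} → {q : Quotient (MulAction.orbitRel G Ω) // q ≠ cl α} := fun x => ⟨cl x.1, x.2⟩
  have hinvs : Function.Surjective inv := by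
    rintro ⟨q, hq⟩
    obtain ⟨y, rfl⟩ := Quotient.exists_rep q
    exact ⟨⟨y, hq⟩, rfl⟩
  have h2 := bnd_range ih (f2.comp f1.ker.subtype) (by omega) inv
    (fun a x => Subtype.ext (hcl a.1 x.1)) hinvs
  have hinj : Function.Injective (f2.comp f1.ker.subtype) := by
    intro a b hab
    refine Subtype.ext (Subtype.ext (Equiv.ext fun x => ?_))
    by_cases hx : cl x = cl α
    · have ha : f1 a.1 = 1 := a.2
      have hb : f1 b.1 = 1 := b.2
      have := congrArg Subtype.val (DFunLike.congr_fun (ha.trans hb.symm) ⟨x, hx⟩)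
      exact this
    · have := congrArg Subtype.val (DFunLike.congr_fun hab ⟨x, hx⟩)
      exact this
  have h := bnd_of_hom f1 (bnd_of_injective _ hinj h2) h1
  refine h.mono ?_
  have hS : Nat.card {q : Quotient (MulAction.orbitRel G Ω) // q ≠ cl α} + 1 = Nat.card (Quotient (MulAction.orbitRel G Ω)) := by
    rw [Nat.card_eq_fintype_card, Nat.card_eq_fintype_card, Fintype.card_subtype_compl, Fintype.card_subtype_eq]
    have := Fintype.card_pos_iff.2 ⟨cl α⟩
    omega
  have hle : Nat.card {q : Quotient (MulAction.orbitRel G Ω) // q ≠ cl α} ≤ Nat.card {x // cl x ≠ cl α} :=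
    Nat.card_le_card_of_surjective inv hinvs
  simp only [Nat.card_unique]
  omega

theorem imprim {n : ℕ} (ih : ∀ m < n, P.{v} m) (G : Subgroup (Equiv.Perm Ω)) (hn : Nat.card Ω = n)
    [MulAction.IsPretransitive G Ω] (B : Set Ω) (hB : MulAction.IsBlock G B) (hB2 : B.Nontrivial)
    (hBu : B ≠ Set.univ) : Bnd G (4 * (n - 1)) := by
  classical
  have := Fintype.ofFinite Ω
  let O : Set (Set Ω) := MulAction.orbit G B
  let f : G →* Equiv.Perm O := MulAction.toPermHom G O
  have hne : B.Nonempty := hB2.nonempty
  have hmul : B.ncard * O.ncard = n := by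
    rw [← hn]; exact hB.ncard_block_mul_ncard_orbit_eq hne
  have hB2' : 2 ≤ B.ncard := (Set.one_lt_ncard B.toFinite).2 (by
    obtain ⟨a, ha, b, hb, h⟩ := hB2; exact ⟨a, ha, b, hb, h⟩)
  have hO2 : 2 ≤ O.ncard := by
    by_contra h
    have hO1 : O.ncard ≤ 1 := by omega
    refine hBu (Set.eq_univ_of_forall fun x => ?_)
    obtain ⟨a, ha⟩ := hne
    obtain ⟨g, rfl⟩ := MulAction.exists_smul_eq G a x
    have hg : g • B = B := (Set.ncard_le_one O.toFinite).1 hO1 _ ⟨g, rfl⟩ _ ⟨1, one_smul _ _⟩
    exact hg ▸ Set.smul_mem_smul_set ha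
  have hlt : O.ncard < n := by nlinarith
  have hcO : Nat.card O = O.ncard := Nat.card_coe_set_eq O
  have h1 := bnd_range ih f (by omega) (fun _ => ()) (fun _ _ => rfl)
    (fun _ => ⟨⟨B, 1, one_smul _ _⟩, rfl⟩)
  -- the kernel fixes every block
  let K : Subgroup (Equiv.Perm Ω) := f.ker.map G.subtype
  have hcover : ∀ x, ∃ C : O, x ∈ (C : Set Ω) := fun x => by
    obtain ⟨a, ha⟩ := hne
    obtain ⟨g, rfl⟩ := MulAction.exists_smul_eq G a x
    exact ⟨⟨g • B, g, rfl⟩, Set.smul_mem_smul_set ha⟩
  have huniq : ∀ (C D : O) x, x ∈ (C : Set Ω) → x ∈ (D : Set Ω) → C = D := by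
    rintro ⟨_, g, rfl⟩ ⟨_, h, rfl⟩ x hx hy
    exact Subtype.ext (hB.smul_eq_smul_of_nonempty ⟨x, hx, hy⟩)
  choose blk hblk using hcover
  let F : Quotient (MulAction.orbitRel K Ω) → O := Quotient.lift blk (by
    intro a b hab
    obtain ⟨⟨_, k, hk, rfl⟩, rfl⟩ := MulAction.orbitRel_apply.1 hab
    refine huniq _ _ _ (hblk _) ?_
    have hfix : k • (blk b : Set Ω) = (blk b : Set Ω) := by
      have := congrArg Subtype.val (DFunLike.congr_fun (MonoidHom.mem_ker.1 hk) (blk b))
      exact this
    exact hfix ▸ Set.smul_mem_smul_set (hblk b))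
  have hF : Function.Surjective F := by
    rintro ⟨_, g, rfl⟩
    obtain ⟨a, ha⟩ := hne
    exact ⟨Quotient.mk'' (g • a), huniq _ ⟨g • B, g, rfl⟩ _ (hblk _) (Set.smul_mem_smul_set ha)⟩
  have hr := Nat.card_le_card_of_surjective F hF
  have h2 := intrans ih K hn (by omega)
  have h2' : Bnd f.ker (4 * (n - O.ncard)) :=
    (h2.congr (f.ker.equivMapOfInjective _ G.subtype_injective).symm).mono (by omega)
  refine (bnd_of_hom f h2' h1).mono ?_
  simp only [Nat.card_unique]
  omega

theorem le_log_bound (A : Type*) [Group A] [Finite A] {q L : ℕ} (H : Subgroup A) (hH : Bnd H q)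
    (hi : Nat.log 2 H.index ≤ L) : Bnd A (q + 3 * L) :=
  bnd_of_index H hH (Or.inr hi)

/-- A group fixing `α` with a base avoiding `α`. -/
theorem bnd_base (α : Ω) (S : Finset Ω) : α ∉ S → ∀ (A : Subgroup (Equiv.Perm Ω)), (∀ a ∈ A, a α = α) →
    (∀ a ∈ A, (∀ s ∈ S, a s = s) → a = 1) → Bnd A (S.card * (3 * Nat.log 2 (Nat.card Ω - 1))) := by
  classical
  induction S using Finset.induction with
  | empty =>
    intro _ A _ h
    have : Subsingleton A := ⟨fun a b => Subtype.ext ((h a a.2 (by simp)).trans (h b b.2 (by simp)).symm)⟩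
    exact bnd_subsingleton _
  | @insert s S hs ih =>
    intro hα A hA h
    have hsα : s ≠ α := fun e => hα (e ▸ Finset.mem_insert_self _ _)
    let A' : Subgroup (Equiv.Perm Ω) := A ⊓ MulAction.stabilizer (Equiv.Perm Ω) s
    have h' := ih (fun e => hα (Finset.mem_insert_of_mem e)) A' (fun a ha => hA a ha.1) (fun a ha hS =>
      h a ha.1 (fun t ht => by
        rcases Finset.mem_insert.1 ht with rfl | ht
        · exact ha.2
        · exact hS t ht))
    let g : A' →* MulAction.stabilizer A s :=
      { toFun := fun a => ⟨⟨a.1, a.2.1⟩, a.2.2⟩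
        map_one' := rfl
        map_mul' := fun _ _ => rfl }
    have hH := bnd_of_surjective g (fun b => ⟨⟨b.1.1, b.1.2, b.2⟩, rfl⟩) h'
    rw [Finset.card_insert_of_notMem hs, add_mul, one_mul]
    refine bnd_of_index _ hH (Or.inr (Nat.log_mono_right ?_))
    rw [MulAction.index_stabilizer]
    have hsub : MulAction.orbit A s ⊆ {α}ᶜ := by
      rintro _ ⟨a, rfl⟩ e
      exact hsα (a.1.injective ((show a.1 s = α from e).trans (hA a a.2).symm))
    have := Set.ncard_le_ncard hsub (Set.toFinite _)
    rw [Set.ncard_compl, Set.ncard_singleton] at this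
    exact this

theorem affine_arith {m p q L : ℕ} (hp : 2 ≤ p) (hm : 1 ≤ m) (hq : p ^ m = q + 1) (hL : 2 ^ L ≤ q) :
    3 * m + m * (3 * L) ≤ 4 * q := by
  rcases hp.eq_or_lt with rfl | hp3
  · have hLm : L < m := (Nat.pow_lt_pow_iff_right (by norm_num)).1 (show 2 ^ L < 2 ^ m by omega)
    have key : ∀ m, 3 * m * m + 4 ≤ 4 * 2 ^ m := by
      intro m
      rcases Nat.lt_or_ge m 4 with h | h
      · interval_cases m <;> norm_num
      · induction m, h using Nat.le_induction with
        | base => norm_num
        | succ m hm ih => rw [pow_succ]; nlinarith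
    have := key m
    nlinarith
  · have h3 : 3 ^ m ≤ q + 1 := hq ▸ Nat.pow_le_pow_left hp3 m
    have k1 : ∀ m, 2 * (m * m) + 1 ≤ 3 ^ m := by
      intro m
      rcases Nat.lt_or_ge m 3 with h | h
      · interval_cases m <;> norm_num
      · induction m, h using Nat.le_induction with
        | base => norm_num
        | succ m hm ih => rw [pow_succ]; nlinarith
    have k2 : ∀ L, 9 * ((L + 1) * (L + 1)) ≤ 32 * 2 ^ L := by
      intro L
      rcases Nat.lt_or_ge L 4 with h | h
      · interval_cases L <;> norm_num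
      · induction L, h using Nat.le_induction with
        | base => norm_num
        | succ L hL ih => rw [pow_succ]; nlinarith
    have h1 := k1 m
    have h2 := k2 L
    have h4 : 48 * (m * (L + 1)) ≤ 64 * (m * m) + 9 * ((L + 1) * (L + 1)) := by
      have := two_mul_le_add_sq (8 * (m : ℤ)) (3 * (L + 1))
      zify
      nlinarith
    nlinarith

theorem prim {n : ℕ} (ih : ∀ m < n, P.{v} m) (G : Subgroup (Equiv.Perm Ω)) (hn : Nat.card Ω = n)
    [MulAction.IsPreprimitive G Ω] [Nontrivial Ω] : Bnd G (4 * (n - 1)) := by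
  classical
  have := Fintype.ofFinite Ω
  have : Nontrivial G := by
    obtain ⟨a, b, hab⟩ := exists_pair_ne Ω
    obtain ⟨g, hg⟩ := MulAction.exists_smul_eq G a b
    exact ⟨g, 1, fun e => hab (by rw [← hg, e, one_smul])⟩
  obtain ⟨N, ⟨hNn, hNb⟩, hNmin⟩ := (Set.toFinite {N : Subgroup G | N.Normal ∧ N ≠ ⊥}).exists_minimal
    ⟨⊤, inferInstance, top_ne_bot⟩
  have hmin : ∀ M : Subgroup G, M.Normal → M ≤ N → M = ⊥ ∨ M = N := by
    intro M hM hle
    by_cases h : M = ⊥
    · exact Or.inl h
    · exact Or.inr (le_antisymm hle (hNmin ⟨hM, h⟩ hle))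
  obtain ⟨T, hTg, m, hTs, hm, ⟨e⟩⟩ := Cfsg.Agent.S0721.result N hNb hmin
  let _ := hTg
  have : IsSimpleGroup T := hTs
  have : Finite T := Finite.of_surjective (fun x => e x ⟨0, hm⟩) fun t => ⟨e.symm (fun _ => t), by simp⟩
  -- every nontrivial normal subgroup is transitive
  have htr : ∀ M : Subgroup G, M.Normal → M ≠ ⊥ → ∀ x y : Ω, ∃ a ∈ M, a.1 x = y := by
    intro M hM hMb x y
    have hfix : MulAction.fixedPoints M Ω ≠ Set.univ := by
      intro h
      refine hMb (eq_bot_iff.2 fun a ha => Subgroup.mem_bot.2 (Subtype.ext (Equiv.ext fun z => ?_)))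
      exact (Set.eq_univ_iff_forall.1 h z) ⟨a, ha⟩
    have := MulAction.IsQuasiPreprimitive.isPretransitive_of_normal (G := G) (X := Ω) (N := M) hfix
    obtain ⟨a, ha⟩ := MulAction.exists_smul_eq M x y
    exact ⟨a.1, a.2, ha⟩
  obtain ⟨α⟩ := (inferInstance : Nonempty Ω)
  let A := MulAction.stabilizer G α
  let Aα := N ⊓ A
  let ρ : A →* G ⧸ N := (QuotientGroup.mk' N).comp A.subtype
  have hdec0 : ∀ g : G, ∃ a ∈ N, a⁻¹ * g ∈ A := by
    intro g
    obtain ⟨a, ha, he⟩ := htr N hNn hNb α (g.1 α)
    refine ⟨a, ha, ?_⟩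
    show (a⁻¹ * g) • α = α
    rw [mul_smul, inv_smul_eq_iff]
    exact he.symm
  have hρ : Function.Surjective ρ := by
    intro q
    obtain ⟨g, rfl⟩ := QuotientGroup.mk'_surjective N q
    obtain ⟨a, ha, h⟩ := hdec0 g
    refine ⟨⟨a⁻¹ * g, h⟩, ?_⟩
    simp [ρ, (QuotientGroup.eq_one_iff a).2 ha]
  have hGN : ∀ {a b}, Bnd N a → Bnd (G ⧸ N) b → Bnd G (a + b) := by
    intro a b ha hb
    refine bnd_of_hom (QuotientGroup.mk' N) ?_ (bnd_range_of_surjective _ (QuotientGroup.mk'_surjective N) hb)
    exact ha.congr (MulEquiv.subgroupCongr (QuotientGroup.ker_mk' N).symm)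
  have hN3 : Bnd N (3 * m) := (bnd_pi (T := T) m).congr e.symm
  -- the stabiliser acts on the other points
  let fA : A →* Equiv.Perm {x // x ≠ α} := restrictHom (G.subtype.comp A.subtype) (fun x => x ≠ α)
    (fun a x hx e => hx (a.1.1.injective (e.trans (show a.1.1 α = α from a.2).symm)))
  have hfA : Function.Injective fA := by
    intro a b hab
    refine Subtype.ext (Subtype.ext (Equiv.ext fun x => ?_))
    by_cases hx : x = α
    · subst hx
      exact (show a.1.1 x = x from a.2).trans (show b.1.1 x = x from b.2).symm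
    · have := congrArg Subtype.val (DFunLike.congr_fun hab ⟨x, hx⟩)
      exact this
  have hcard1 : Nat.card {x // x ≠ α} = n - 1 := by
    rw [← hn, Nat.card_eq_fintype_card, Nat.card_eq_fintype_card, Fintype.card_subtype_compl, Fintype.card_subtype_eq]
  have hn2 : 2 ≤ n := hn ▸ Finite.one_lt_card
  let φ : G →* MulAut (Fin m → T) := (MulAut.congr e).toMonoidHom.comp MulAut.conjNormal
  have hφ : ∀ g x, ((e.symm (φ g x) : N) : G) = g * (e.symm x : N) * g⁻¹ := by
    intro g x
    simp [φ, MulAut.congr, MulAut.conjNormal_apply]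
  have hφN : ∀ a : N, φ a = MulAut.conj (e a) := by
    intro a
    ext x : 1
    apply e.symm.injective
    apply Subtype.ext
    rw [hφ]
    simp
  by_cases hT : IsMulCommutative T
  · -- affine type
    let _ : CommGroup T := { hTg with mul_comm := fun a b => hT.is_comm.comm a b }
    have hp : (Nat.card T).Prime := IsSimpleGroup.prime_card
    have hreg : ∀ a ∈ N, a.1 α = α → a = 1 := by
      intro a ha h
      refine Subtype.ext (Equiv.ext fun x => ?_)
      obtain ⟨b, hb, rfl⟩ := htr N hNn hNb α x
      have hab : a * b = b * a := by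
        have h1 : (⟨a, ha⟩ : N) * ⟨b, hb⟩ = ⟨b, hb⟩ * ⟨a, ha⟩ :=
          e.injective (by rw [map_mul, map_mul]; funext i; exact hT.is_comm.comm _ _)
        exact congrArg Subtype.val h1
      show a.1 (b.1 α) = b.1 α
      have := congrArg (fun z : G => z.1 α) hab
      simpa [h] using this
    have hnN : Nat.card N = n := by
      rw [← hn]
      refine Nat.card_congr (Equiv.ofBijective (fun a : N => a.1.1 α) ⟨fun a b h => ?_, fun y => ?_⟩)
      · have := hreg (b.1⁻¹ * a.1) (N.mul_mem (N.inv_mem b.2) a.2) (by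
          simp [show a.1.1 α = b.1.1 α from h])
        exact Subtype.ext (inv_mul_eq_one.1 this).symm
      · obtain ⟨a, ha, h⟩ := htr N hNn hNb α y
        exact ⟨⟨a, ha⟩, h⟩
    rw [Nat.card_congr e.toEquiv, Nat.card_fun, Nat.card_fin] at hnN
    obtain ⟨t0, ht0⟩ := exists_ne (1 : T)
    let v : Fin m → G := fun i => (e.symm (Pi.mulSingle i t0) : N)
    have hvN : ∀ i, v i ∈ N := fun i => (e.symm (Pi.mulSingle i t0)).2
    let S : Finset Ω := Finset.univ.image fun i => (v i).1 α
    have hαS : α ∉ S := by
      simp only [S, Finset.mem_image, Finset.mem_univ, true_and, not_exists]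
      intro i h
      have := hreg _ (hvN i) h
      have h1 : e.symm (Pi.mulSingle i t0) = 1 := Subtype.ext this
      rw [map_eq_one_iff _ e.symm.injective, Pi.mulSingle_eq_one_iff] at h1
      exact ht0 h1
    let A0 : Subgroup (Equiv.Perm Ω) := A.map G.subtype
    have hA0 : Bnd A0 (S.card * (3 * Nat.log 2 (Nat.card Ω - 1))) := by
      refine bnd_base α S hαS A0 (by rintro _ ⟨a, ha, rfl⟩; exact ha) ?_
      rintro _ ⟨a, ha, rfl⟩ hfix
      have hcomm : ∀ i, φ a (Pi.mulSingle i t0) = Pi.mulSingle i t0 := by
        intro i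
        apply e.symm.injective
        apply Subtype.ext
        rw [hφ]
        show a * v i * a⁻¹ = v i
        have h1 : (a * v i * a⁻¹).1 α = (v i).1 α := by
          have h2 : (Equiv.symm a.1) α = α := (Equiv.symm_apply_eq _).2 (show a.1 α = α from ha).symm
          have h3 : a.1 ((v i).1 α) = (v i).1 α := hfix _ (Finset.mem_image_of_mem _ (Finset.mem_univ i))
          simpa [h2] using h3
        have := hreg ((v i)⁻¹ * (a * v i * a⁻¹)) (N.mul_mem (N.inv_mem (hvN i)) (hNn.conj_mem _ (hvN i) a)) (by
          show (v i).1⁻¹ ((a * v i * a⁻¹).1 α) = α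
          rw [h1]; simp)
        exact (inv_mul_eq_one.1 this).symm
      have hall : ∀ x, φ a x = x := by
        intro x
        have hX : (⊤ : Subgroup (Fin m → T)) ≤ MonoidHom.eqLocus (φ a).toMonoidHom (MonoidHom.id _) := by
          intro y _
          refine Subgroup.pi_mem_of_mulSingle_mem y fun i => ?_
          obtain ⟨k, hk⟩ : y i ∈ Subgroup.zpowers t0 := by
            have := (Subgroup.zpowers t0).normal_of_comm
            rw [this.eq_bot_or_eq_top.resolve_left (by simpa using ht0)]
            trivial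
          show φ a (Pi.mulSingle i (y i)) = Pi.mulSingle i (y i)
          rw [← hk, Pi.mulSingle_zpow, map_zpow, hcomm]
        exact hX (Subgroup.mem_top x)
      ext x
      obtain ⟨b, hb, rfl⟩ := htr N hNn hNb α x
      have h1 := congrArg (fun z => ((e.symm z : N) : G).1 α) (hall (e ⟨b, hb⟩))
      simp only [hφ, MulEquiv.symm_apply_apply] at h1
      have h2 : (Equiv.symm a.1) α = α := (Equiv.symm_apply_eq _).2 (show a.1 α = α from ha).symm
      simpa [h2] using h1
    have hA : Bnd A (S.card * (3 * Nat.log 2 (Nat.card Ω - 1))) :=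
      hA0.congr (A.equivMapOfInjective _ G.subtype_injective).symm
    refine (hGN hN3 (bnd_of_surjective ρ hρ hA)).mono ?_
    have hSc : S.card ≤ m := Finset.card_image_le.trans (by simp)
    rw [hn]
    calc 3 * m + S.card * (3 * Nat.log 2 (n - 1)) ≤ 3 * m + m * (3 * Nat.log 2 (n - 1)) :=
          Nat.add_le_add_left (Nat.mul_le_mul_right _ hSc) _
      _ ≤ 4 * (n - 1) := affine_arith hp.two_le hm (by omega) (Nat.pow_log_le_self 2 (by omega))
  · -- non-abelian minimal normal subgroup
    by_cases hNα : Aα = ⊥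
    · -- regular
      have hreg : ∀ a ∈ N, a.1 α = α → a = 1 := fun a ha h =>
        Subgroup.mem_bot.1 (hNα ▸ (⟨ha, h⟩ : a ∈ Aα))
      have hw : ∀ x : {x // x ≠ α}, ∃ u : N, u.1.1 α = x.1 := fun x => by
        obtain ⟨a, ha, h⟩ := htr N hNn hNb α x.1
        exact ⟨⟨a, ha⟩, h⟩
      choose w hwα using hw
      have hwu : ∀ x (u : N), u.1.1 α = x.1 → w x = u := fun x u h => by
        have := hreg (u.1⁻¹ * (w x).1) (N.mul_mem (N.inv_mem u.2) (w x).2) (by simp [hwα, ← h])
        exact Subtype.ext (inv_mul_eq_one.1 this).symm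
      let supp : (Fin m → T) → Finset (Fin m) := fun z => Finset.univ.filter fun i => z i ≠ 1
      have hsupp : ∀ g z, (supp (φ g z)).card = (supp z).card := by
        intro g z
        obtain ⟨σ, f, -, hf⟩ := exists_perm hT (φ g)
        have : supp (φ g z) = (supp z).map σ.toEmbedding := by
          ext j
          obtain ⟨i, rfl⟩ := σ.surjective j
          simp [supp, hf]
        rw [this, Finset.card_map]
      have hne : ∀ x, supp (e (w x)) ≠ ∅ := fun x h => x.2 (by
        have h1 : e (w x) = 1 := funext fun i => by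
          by_contra hc
          exact Finset.notMem_empty i (h ▸ Finset.mem_filter.2 ⟨Finset.mem_univ _, hc⟩)
        rw [map_eq_one_iff _ e.injective] at h1
        simp [← hwα x, h1])
      let inv : {x // x ≠ α} → Fin m := fun x => ⟨(supp (e (w x))).card - 1, by
        have h1 : (supp (e (w x))).card ≤ m := (Finset.card_le_univ _).trans_eq (Fintype.card_fin m)
        have h2 := Finset.card_pos.2 (Finset.nonempty_iff_ne_empty.2 (hne x))
        omega⟩
      have hinv : ∀ a x, inv (fA a x) = inv x := by
        intro a x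
        apply Fin.ext
        show (supp (e (w (fA a x)))).card - 1 = (supp (e (w x))).card - 1
        have h1 : w (fA a x) = e.symm (φ a.1 (e (w x))) := hwu _ _ (by
          rw [hφ]
          have h2 : (Equiv.symm a.1.1) α = α := (Equiv.symm_apply_eq _).2 (show a.1.1 α = α from a.2).symm
          simp [fA, h2, hwα])
        rw [h1, MulEquiv.apply_symm_apply, hsupp]
      have hsurj : Function.Surjective inv := by
        intro s
        obtain ⟨t, ht⟩ := exists_ne (1 : T)
        let z : Fin m → T := fun i => if i ≤ s then t else 1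
        let u : N := e.symm z
        have hu : u.1.1 α ≠ α := fun h => by
          have := congrFun ((map_eq_one_iff _ e.symm.injective).1 (Subtype.ext (hreg _ u.2 h) : u = 1)) s
          simp [z, ht] at this
        refine ⟨⟨u.1.1 α, hu⟩, Fin.ext ?_⟩
        show (supp (e (w _))).card - 1 = s.1
        rw [hwu ⟨_, hu⟩ u rfl, MulEquiv.apply_symm_apply]
        have : supp z = Finset.Iic s := by
          ext i
          simp [supp, z, ht]
        rw [this, Fin.card_Iic]; omega
      have hA := bnd_of_injective fA hfA (bnd_range ih fA (by omega) inv hinv hsurj)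
      refine (hGN hN3 (bnd_of_surjective ρ hρ hA)).mono ?_
      have hle := Nat.card_le_card_of_surjective inv hsurj
      rw [hcard1, Nat.card_fin] at hle ⊢
      omega
    · have hφi : Function.Injective φ := by
        rw [← MonoidHom.ker_eq_bot_iff]
        by_contra hC
        refine hNα (eq_bot_iff.2 fun a ha => Subgroup.mem_bot.2 (Subtype.ext (Equiv.ext fun x => ?_)))
        obtain ⟨c, hc, rfl⟩ := htr φ.ker inferInstance hC α x
        have h1 := hφ c (e ⟨a, ha.1⟩)
        rw [MonoidHom.mem_ker.1 hc] at h1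
        simp only [MulAut.one_apply, MulEquiv.symm_apply_apply] at h1
        have h2 := congrArg (fun z : G => z.1 (c.1 α)) h1
        have h3 : a.1 α = α := ha.2
        simpa [h3] using h2
      rcases Nat.lt_or_ge m 3 with hm3 | hm3
      · have hA := bnd_of_injective fA hfA (bnd_range ih fA (by omega) (fun _ => ()) (fun _ _ => rfl)
          (fun _ => by obtain ⟨y, hy⟩ := exists_ne α; exact ⟨⟨y, hy⟩, rfl⟩))
        have hk : ρ.ker ≠ ⊥ := by
          intro h
          refine hNα (eq_bot_iff.2 fun a ha => ?_)
          have : (⟨a, ha.2⟩ : A) ∈ ρ.ker := (QuotientGroup.eq_one_iff a).2 ha.1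
          rw [h, Subgroup.mem_bot] at this
          exact Subgroup.mem_bot.2 (congrArg Subtype.val this)
        have hn3 : 3 ≤ n := by
          by_contra hlt
          have : Subsingleton {x // x ≠ α} := Finite.card_le_one_iff_subsingleton.1 (by rw [hcard1]; omega)
          have : Subsingleton A := ⟨fun a b => hfA (Subsingleton.elim _ _)⟩
          exact hk (Subgroup.eq_bot_of_subsingleton _)
        refine (hGN hN3 (bnd_of_surjective_ker ρ hρ hk hA)).mono ?_
        simp only [Nat.card_unique, hcard1]
        omega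
      · let K : Subgroup (Fin m → T) := (Aα.subgroupOf N).map e.toMonoidHom
        have hK : ∀ x, x ∈ K ↔ ((e.symm x : N) : G) ∈ A := by
          intro x
          simp only [K, Subgroup.mem_map_equiv, Subgroup.mem_subgroupOf, Aα, Subgroup.mem_inf]
          exact and_iff_right (e.symm x).2
        have hKidx : K.index = n := by
          rw [← hn]
          have e1 : K.index = (MulAction.stabilizer N α).index := by
            show ((Aα.subgroupOf N).map (e : ↥N →* (Fin m → T))).index = _
            rw [Subgroup.index_map_equiv]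
            congr 1
            ext a
            simp [Aα, A, Subgroup.mem_subgroupOf, Subgroup.smul_def]
          have : MulAction.IsPretransitive N Ω := ⟨fun x y => by
            obtain ⟨a, ha, h⟩ := htr N hNn hNb x y
            exact ⟨⟨a, ha⟩, h⟩⟩
          rw [e1, MulAction.index_stabilizer, MulAction.orbit_eq_univ, Set.ncard_univ]
        have hdec : ∀ g, ∃ (u : Fin m → T) (h : G), φ g = MulAut.conj u * φ h ∧ ∀ x, x ∈ K ↔ φ h x ∈ K := by
          intro g
          obtain ⟨a, ha, h⟩ := hdec0 g
          refine ⟨e ⟨a, ha⟩, a⁻¹ * g, ?_, fun x => ?_⟩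
          · rw [← hφN, ← map_mul]
            simp
          · rw [hK, hK, hφ]
            constructor
            · exact fun hx => A.mul_mem (A.mul_mem h hx) (A.inv_mem h)
            · intro hx
              have := A.mul_mem (A.mul_mem (A.inv_mem h) hx) h
              simpa [mul_assoc] using this
        have hminD : ∀ X : Subgroup (Fin m → T), (∀ g, ∀ x ∈ X, φ g x ∈ X) → X = ⊥ ∨ X = ⊤ := by
          intro X hX
          let M : Subgroup G := (X.map e.symm.toMonoidHom).map N.subtype
          have hM : M.Normal := ⟨by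
            rintro _ ⟨_, ⟨x, hx, rfl⟩, rfl⟩ g
            exact ⟨_, ⟨φ g x, hX g x hx, rfl⟩, hφ g x⟩⟩
          rcases hmin M hM (Subgroup.map_subtype_le _) with h | h
          · left
            exact (Subgroup.map_eq_bot_iff_of_injective _ e.symm.injective).1
              ((Subgroup.map_eq_bot_iff_of_injective _ N.subtype_injective).1 h)
          · right
            refine eq_top_iff.2 fun x _ => ?_
            have hmem : ((e.symm x : N) : G) ∈ M := by rw [h]; exact (e.symm x).2
            obtain ⟨_, ⟨y, hy, rfl⟩, hye⟩ := hmem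
            have h2 : y = x := e.symm.injective (Subtype.ext hye)
            rw [← h2]; exact hy
        have hKb : K ≠ ⊥ := by
          intro h
          refine hNα (eq_bot_iff.2 fun a ha => ?_)
          have h1 : e ⟨a, ha.1⟩ ∈ K := (hK _).2 (by simpa using ha.2)
          rw [h, Subgroup.mem_bot, map_eq_one_iff _ e.injective] at h1
          exact Subgroup.mem_bot.2 (congrArg Subtype.val h1)
        have hKt : K ≠ ⊤ := fun h => by
          rw [h, Subgroup.index_top] at hKidx
          omega
        rcases small_set hT φ K hdec hminD hKb hKt hm3 with ⟨X, hXc, hXi, S, hS, u, hu⟩ | ⟨X, hXc, hXi, hXs⟩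
        · let ψ0 : G →* Equiv.Perm (Subgroup (Fin m → T)) :=
            { toFun := fun g => (φ g).mapSubgroup.toEquiv
              map_one' := by ext S x; simp
              map_mul' := fun g g' => by
                refine Equiv.ext fun S => ?_
                show S.map (φ (g * g')).toMonoidHom = (S.map (φ g').toMonoidHom).map (φ g).toMonoidHom
                rw [map_mul, Subgroup.map_map]
                rfl }
          let ψ := restrictHom ψ0 (fun S => S ∈ X) (fun g S hS => hXi g S hS)
          have hψ : Function.Injective ψ := by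
            rw [← MonoidHom.ker_eq_bot_iff]
            by_contra hk
            rcases hmin (ψ.ker ⊓ N) inferInstance inf_le_right with h | h
            · refine hk (eq_bot_iff.2 fun c hc => ?_)
              apply Subgroup.mem_bot.2
              apply hφi
              rw [map_one]
              ext x : 1
              apply e.symm.injective
              apply Subtype.ext
              rw [hφ, MulAut.one_apply]
              have h1 : c * (e.symm x : N).1 * c⁻¹ * (e.symm x : N).1⁻¹ ∈ ψ.ker ⊓ N := by
                constructor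
                · have := (inferInstance : ψ.ker.Normal).conj_mem _ (ψ.ker.inv_mem hc) (e.symm x : N).1
                  have h2 := ψ.ker.mul_mem hc this
                  simpa [mul_assoc] using h2
                · exact N.mul_mem (hNn.conj_mem _ (e.symm x).2 c) (N.inv_mem (e.symm x).2)
              rw [h, Subgroup.mem_bot, mul_inv_eq_one] at h1
              exact h1
            · have h1 : ((e.symm u : N) : G) ∈ ψ.ker := (h.ge (e.symm u).2).1
              have h2 := congrArg Subtype.val (DFunLike.congr_fun (MonoidHom.mem_ker.1 h1) ⟨S, hS⟩)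
              simp only [ψ, restrictHom_apply, Equiv.Perm.coe_one, id_eq] at h2
              apply hu
              rw [show MulAut.conj u = φ ((e.symm u : N) : G) by rw [hφN]; simp]
              exact h2
          have : Nonempty X := ⟨⟨S, hS⟩⟩
          exact (bnd_small ih ψ hψ (hKidx ▸ hXc)).mono (by omega)
        · let ψ0 : G →* Equiv.Perm (Fin m → T) :=
            { toFun := fun g => (φ g).toEquiv
              map_one' := by ext; simp
              map_mul' := fun _ _ => by ext; simp }
          let ψ := restrictHom ψ0 (fun x => x ∈ X) (fun g x hx => hXi g x hx)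
          have hψ : Function.Injective ψ := by
            intro g g' h
            apply hφi
            ext x : 1
            have hX : (⊤ : Subgroup (Fin m → T)) ≤ MonoidHom.eqLocus (φ g).toMonoidHom (φ g').toMonoidHom := by
              intro y _
              refine Subgroup.pi_mem_of_mulSingle_mem y fun i => ?_
              have := congrArg Subtype.val (DFunLike.congr_fun h ⟨_, hXs i (y i)⟩)
              exact this
            exact hX (Subgroup.mem_top x)
          have : Nonempty X := ⟨⟨_, hXs ⟨0, hm⟩ 1⟩⟩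
          exact (bnd_small ih ψ hψ (hKidx ▸ hXc)).mono (by omega)

theorem main : ∀ n, P.{v} n := by
  intro n
  induction n using Nat.strong_induction_on with
  | _ n ih =>
    intro Ω _ G hn
    rcases Nat.lt_or_ge (Nat.card (Quotient (MulAction.orbitRel G Ω))) 2 with hr | hr
    · rcases subsingleton_or_nontrivial Ω with hs | hs
      · exact bnd_subsingleton _
      have : Nonempty (Quotient (MulAction.orbitRel G Ω)) := ⟨Quotient.mk'' (Classical.arbitrary Ω)⟩
      have hr1 : Nat.card (Quotient (MulAction.orbitRel G Ω)) = 1 := by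
        have := Nat.card_pos (α := Quotient (MulAction.orbitRel G Ω)); omega
      have : MulAction.IsPretransitive G Ω := ⟨fun x y => by
        have := (Nat.card_eq_one_iff_unique.1 hr1).1
        obtain ⟨g, hg⟩ := MulAction.orbitRel_apply.1 (Quotient.exact (Subsingleton.elim (Quotient.mk (MulAction.orbitRel G Ω) y) (Quotient.mk _ x)))
        exact ⟨g, hg⟩⟩
      rw [hr1]
      by_cases hp : ∀ B : Set Ω, MulAction.IsBlock G B → MulAction.IsTrivialBlock B
      · have : MulAction.IsPreprimitive G Ω := { isTrivialBlock_of_isBlock := fun {B} hB => hp B hB }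
        exact prim ih G hn
      · push Not at hp
        obtain ⟨B, hB, hB'⟩ := hp
        rw [MulAction.IsTrivialBlock, not_or] at hB'
        exact imprim ih G hn B hB (Set.not_subsingleton_iff.1 hB'.1) hB'.2
    · exact intrans ih G hn hr

end Cfsg.Agent.Lib.CompLen
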