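import Mathlib

set_option autoImplicit false

namespace Cfsg.Agent.Lib.CompLen

variable {T : Type*} [Group T] [IsSimpleGroup T] {m : ℕ}

theorem exists_comm_ne (hT : ¬ IsMulCommutative T) {a : T} (ha : a ≠ 1) : ∃ t : T, a * t ≠ t * a := by
  by_contra h
  push Not at h
  have hc : a ∈ Subgroup.center T := Subgroup.mem_center_iff.2 fun t => (h t).symm
  rcases (inferInstance : (Subgroup.center T).Normal).eq_bot_or_eq_top with e | e
  · exact ha (by simpa [e] using hc)
  · exact hT ⟨⟨fun x y => ((Subgroup.mem_center_iff.1 (e ▸ Subgroup.mem_top x : x ∈ Subgroup.center T)) y).symm⟩⟩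

omit [IsSimpleGroup T] in
theorem comm_single (s : Fin m → T) (j : Fin m) (t : T) :
    s * Pi.mulSingle j t * s⁻¹ * (Pi.mulSingle j t)⁻¹ = Pi.mulSingle j (s j * t * (s j)⁻¹ * t⁻¹) := by
  funext i
  rcases eq_or_ne i j with rfl | h
  · simp
  · simp [Pi.mulSingle_eq_of_ne h]

omit [IsSimpleGroup T] in
theorem conj_single (v : Fin m → T) (j : Fin m) (t : T) :
    v * Pi.mulSingle j t * v⁻¹ = Pi.mulSingle j (v j * t * (v j)⁻¹) := by
  funext i
  rcases eq_or_ne i j with rfl | h
  · simp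
  · simp [Pi.mulSingle_eq_of_ne h]

/-- The coordinates permutation of an automorphism of a power of a non-abelian simple group. -/
theorem exists_perm (hT : ¬ IsMulCommutative T) (ψ : MulAut (Fin m → T)) :
    ∃ (σ : Equiv.Perm (Fin m)) (f : Fin m → (T ≃* T)),
      (∀ i t, ψ (Pi.mulSingle i t) = Pi.mulSingle (σ i) (f i t)) ∧ ∀ x i, ψ x (σ i) = f i (x i) := by
  classical
  have key : ∀ (χ : MulAut (Fin m → T)) (i : Fin m), ∃ j, ∀ t, ∃ u, χ (Pi.mulSingle i t) = Pi.mulSingle j u := by
    intro χ i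
    obtain ⟨a, ha⟩ := exists_ne (1 : T)
    have hne : χ (Pi.mulSingle i a) ≠ 1 := by simpa using ha
    obtain ⟨j, hj⟩ := Function.ne_iff.1 hne
    obtain ⟨c, hc⟩ := exists_comm_ne hT hj
    let P : Subgroup T := Subgroup.comap (χ.toMonoidHom.comp (MonoidHom.mulSingle (fun _ : Fin m => T) i))
      (MonoidHom.mulSingle (fun _ : Fin m => T) j).range
    have hPn : P.Normal := ⟨fun x hx y => by
      obtain ⟨u, hu⟩ := hx
      refine ⟨χ (Pi.mulSingle i y) j * u * (χ (Pi.mulSingle i y) j)⁻¹, ?_⟩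
      change Pi.mulSingle j _ = χ (Pi.mulSingle i (y * x * y⁻¹))
      rw [show (Pi.mulSingle i (y * x * y⁻¹) : Fin m → T) = Pi.mulSingle i y * Pi.mulSingle i x * (Pi.mulSingle i y)⁻¹ by
        simp [Pi.mulSingle_mul, Pi.mulSingle_inv], map_mul, map_mul, map_inv]
      change Pi.mulSingle j u = χ (Pi.mulSingle i x) at hu
      rw [← hu, conj_single]⟩
    have hPb : P ≠ ⊥ := by
      intro hP
      let s := χ (Pi.mulSingle i a)
      have h1 := comm_single s j c
      have h2 : s * Pi.mulSingle j c * s⁻¹ * (Pi.mulSingle j c)⁻¹ =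
          χ (Pi.mulSingle i a * χ.symm (Pi.mulSingle j c) * (Pi.mulSingle i a)⁻¹ * (χ.symm (Pi.mulSingle j c))⁻¹) := by
        simp [s]
      have h3 : Pi.mulSingle i a * χ.symm (Pi.mulSingle j c) * (Pi.mulSingle i a)⁻¹ * (χ.symm (Pi.mulSingle j c))⁻¹ =
          Pi.mulSingle i (a * χ.symm (Pi.mulSingle j c) i * a⁻¹ * (χ.symm (Pi.mulSingle j c) i)⁻¹) := by
        funext k
        rcases eq_or_ne k i with rfl | h
        · simp
        · simp [Pi.mulSingle_eq_of_ne h]
      rw [h3] at h2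
      have hm : a * χ.symm (Pi.mulSingle j c) i * a⁻¹ * (χ.symm (Pi.mulSingle j c) i)⁻¹ ∈ P :=
        ⟨_, (h1.symm.trans h2)⟩
      rw [hP, Subgroup.mem_bot] at hm
      rw [hm, Pi.mulSingle_one, map_one, h1, Pi.mulSingle_eq_one_iff] at h2
      exact hc (by
        have := congrArg (fun z => z * (c * s j)) h2
        simpa [mul_assoc] using this)
    have hPt := hPn.eq_bot_or_eq_top.resolve_left hPb
    refine ⟨j, fun t => ?_⟩
    obtain ⟨u, hu⟩ := (hPt ▸ Subgroup.mem_top t : t ∈ P)
    exact ⟨u, hu.symm⟩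
  choose σ hσ using key ψ
  choose g hg using hσ
  choose σ' hσ' using key ψ.symm
  choose g' hg' using hσ'
  have round : ∀ (χ : MulAut (Fin m → T)) (α β : Fin m → Fin m) (γ δ : Fin m → T → T),
      (∀ i t, χ (Pi.mulSingle i t) = Pi.mulSingle (α i) (γ i t)) →
      (∀ i t, χ.symm (Pi.mulSingle i t) = Pi.mulSingle (β i) (δ i t)) →
      ∀ i, β (α i) = i ∧ ∀ t, δ (α i) (γ i t) = t := by
    intro χ α β γ δ h1 h2 i
    have h : ∀ t, Pi.mulSingle (β (α i)) (δ (α i) (γ i t)) = (Pi.mulSingle i t : Fin m → T) := by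
      intro t; rw [← h2, ← h1, MulEquiv.symm_apply_apply]
    obtain ⟨a, ha⟩ := exists_ne (1 : T)
    have hi : β (α i) = i := by
      by_contra hne
      have := congrFun (h a) i
      rw [Pi.mulSingle_eq_same, Pi.mulSingle_eq_of_ne (Ne.symm hne)] at this
      exact ha this.symm
    refine ⟨hi, fun t => ?_⟩
    have := congrFun (h t) i
    rw [hi, Pi.mulSingle_eq_same, Pi.mulSingle_eq_same] at this
    exact this
  have r1 := round ψ σ σ' g g' hg hg'
  have r2 := round ψ.symm σ' σ g' g hg' (by simpa using hg)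
  let e : Equiv.Perm (Fin m) := ⟨σ, σ', fun i => (r1 i).1, fun i => (r2 i).1⟩
  let f : Fin m → (T ≃* T) := fun i =>
    { toFun := g i
      invFun := g' (σ i)
      left_inv := (r1 i).2
      right_inv := fun t => by
        have := (r2 (σ i)).2 t
        rwa [(r1 i).1] at this
      map_mul' := fun a b => by
        have := hg i (a * b)
        rw [Pi.mulSingle_mul, map_mul, hg, hg, ← Pi.mulSingle_mul] at this
        exact (Pi.mulSingle_injective (σ i) this).symm }
  refine ⟨e, f, hg, fun x i => ?_⟩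
  have hz : ∀ t, Commute (x * (Pi.mulSingle i (x i))⁻¹) (Pi.mulSingle i t) := by
    intro t
    funext k
    rcases eq_or_ne k i with rfl | h
    · simp
    · simp [Pi.mulSingle_eq_of_ne h]
  have hz' : ∀ u, Commute (ψ (x * (Pi.mulSingle i (x i))⁻¹) (σ i)) u := by
    intro u
    have := congrFun (((hz ((f i).symm u)).map ψ.toMonoidHom).eq) (σ i)
    simp only [MulEquiv.toMonoidHom_eq_coe, MonoidHom.coe_coe, Pi.mul_apply, hg, Pi.mulSingle_eq_same] at this
    rwa [show g i ((f i).symm u) = u from (f i).apply_symm_apply u] at this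
  have h1 : ψ (x * (Pi.mulSingle i (x i))⁻¹) (σ i) = 1 := by
    by_contra h
    obtain ⟨t, ht⟩ := exists_comm_ne hT h
    exact ht (hz' t).eq
  rw [map_mul, map_inv, Pi.mul_apply, Pi.inv_apply, mul_inv_eq_one] at h1
  rw [show e i = σ i from rfl, h1, hg, Pi.mulSingle_eq_same]
  rfl

theorem sum_lt_prod {ι : Type*} (s : Finset ι) (a : ι → ℕ) (ha : ∀ i ∈ s, 3 ≤ a i) (hs : 2 ≤ s.card) :
    ∑ i ∈ s, a i < ∏ i ∈ s, a i := by
  classical
  induction s using Finset.induction with
  | empty => simp at hs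
  | @insert j s hj ih =>
    rw [Finset.sum_insert hj, Finset.prod_insert hj]
    rw [Finset.card_insert_of_notMem hj] at hs
    have hj3 := ha j (Finset.mem_insert_self _ _)
    rcases Nat.lt_or_ge s.card 2 with h | h
    · obtain ⟨k, rfl⟩ := Finset.card_eq_one.1 (show s.card = 1 by omega)
      have hk3 := ha k (by simp)
      simp only [Finset.sum_singleton, Finset.prod_singleton]
      nlinarith
    · have h1 := ih (fun i hi => ha i (Finset.mem_insert_of_mem hi)) h
      have h2 : s.card • 3 ≤ ∑ i ∈ s, a i := Finset.card_nsmul_le_sum _ _ _ fun i hi => ha i (Finset.mem_insert_of_mem hi)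
      rw [smul_eq_mul] at h2
      nlinarith

end Cfsg.Agent.Lib.CompLen
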